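import Mathlib

/-! # Packed linear algebra over the field with two elements (for S5917, Lambda^2 of the hermitian matrices) -/

set_option autoImplicit false

namespace Cfsg.Agent.H356.L34

/-- the map with columns `M` applied to the bit vector `x`. -/
def ap : List ℕ → ℕ → ℕ
  | [], _ => 0
  | c :: M, x => (if x % 2 = 1 then c else 0) ^^^ ap M (x / 2)

/-- the combination of the vectors `m` with the bits of `x`. -/
def lx {V : Type*} [AddCommMonoid V] : List V → ℕ → V
  | [], _ => 0
  | c :: M, x => (if x % 2 = 1 then c else 0) + lx M (x / 2)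

theorem xor_mod2 (x y : ℕ) : (x ^^^ y) % 2 = (x % 2 + y % 2) % 2 := by
  have h := Nat.testBit_xor x y 0
  simp only [Nat.testBit_zero] at h
  have hx := Nat.mod_two_eq_zero_or_one x
  have hy := Nat.mod_two_eq_zero_or_one y
  have hxy := Nat.mod_two_eq_zero_or_one (x ^^^ y)
  rcases hx with hx | hx <;> rcases hy with hy | hy <;> rcases hxy with hxy | hxy <;>
    simp_all

theorem xor_div2 (x y : ℕ) : (x ^^^ y) / 2 = (x / 2) ^^^ (y / 2) := by
  apply Nat.eq_of_testBit_eq
  intro i
  rw [Nat.testBit_xor, Nat.testBit_div_two, Nat.testBit_div_two, Nat.testBit_div_two,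
    Nat.testBit_xor]

theorem ap_zero (M : List ℕ) : ap M 0 = 0 := by
  induction M with
  | nil => rfl
  | cons c M ih => simp [ap, ih]

theorem lx_zero {V : Type*} [AddCommMonoid V] (M : List V) : lx M 0 = 0 := by
  induction M with
  | nil => rfl
  | cons c M ih => simp [lx, ih]

theorem ite_xor (c x y : ℕ) : (if (x ^^^ y) % 2 = 1 then c else 0) =
    (if x % 2 = 1 then c else 0) ^^^ (if y % 2 = 1 then c else 0) := by
  rw [xor_mod2]
  rcases Nat.mod_two_eq_zero_or_one x with hx | hx <;>
    rcases Nat.mod_two_eq_zero_or_one y with hy | hy <;> simp [hx, hy]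

theorem ap_xor (M : List ℕ) (x y : ℕ) : ap M (x ^^^ y) = ap M x ^^^ ap M y := by
  induction M generalizing x y with
  | nil => simp [ap]
  | cons c M ih =>
    simp only [ap]
    rw [ite_xor, xor_div2, ih]
    simp only [Nat.xor_assoc]
    congr 1
    rw [← Nat.xor_assoc, ← Nat.xor_assoc]
    congr 1
    exact Nat.xor_comm _ _

section V

variable {V : Type*} [AddCommGroup V] (h2 : ∀ v : V, v + v = 0)

include h2

theorem lx_xor (M : List V) (x y : ℕ) : lx M (x ^^^ y) = lx M x + lx M y := by
  induction M generalizing x y with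
  | nil => simp [lx]
  | cons c M ih =>
    simp only [lx]
    rw [xor_mod2, xor_div2, ih]
    rcases Nat.mod_two_eq_zero_or_one x with hx | hx <;>
      rcases Nat.mod_two_eq_zero_or_one y with hy | hy <;> simp [hx, hy] <;> try abel_nf
    have := h2 c
    calc lx M (x / 2) + lx M (y / 2) = (c + c) + (lx M (x / 2) + lx M (y / 2)) := by
          rw [this, zero_add]
      _ = _ := by abel

theorem lx_ap (m : List V) (M : List ℕ) (x : ℕ) :
    lx m (ap M x) = lx (M.map (lx m)) x := by
  induction M generalizing x with
  | nil => simp [ap, lx, lx_zero]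
  | cons c M ih =>
    simp only [ap, List.map_cons, lx]
    rw [lx_xor h2, ih]
    split_ifs with h
    · rfl
    · rw [lx_zero]

end V

theorem map_lx {V W : Type*} [AddCommMonoid V] [AddCommMonoid W] (T : V →+ W) (m : List V)
    (x : ℕ) : T (lx m x) = lx (m.map T) x := by
  induction m generalizing x with
  | nil => simp [lx]
  | cons c M ih =>
    simp only [lx, List.map_cons, map_add, ih]
    split_ifs with h
    · rfl
    · rw [map_zero]

/-- if `T` acts on the list `m` by the columns `M`, it acts on all combinations. -/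
theorem act_lx {V : Type*} [AddCommGroup V] (h2 : ∀ v : V, v + v = 0) (T : V →+ V)
    (m : List V) (M : List ℕ) (h : m.map T = M.map (lx m)) (x : ℕ) :
    T (lx m x) = lx m (ap M x) := by
  rw [map_lx, h, lx_ap h2]

/-- closure of bit vectors under xor and the matrices `G`. -/
def run (G : List (List ℕ)) : List (ℕ × ℕ × ℕ) → List ℕ → List ℕ
  | [], L => L
  | (0, k, i) :: S, L => run G S (ap (G.getD k []) (L.getD i 0) :: L)
  | (_ + 1, i, j) :: S, L => run G S ((L.getD i 0 ^^^ L.getD j 0) :: L)

theorem getD_mem {α : Type*} (P : α → Prop) (d : α) (hd : P d) (L : List α)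
    (h : ∀ x ∈ L, P x) (i : ℕ) : P (L.getD i d) := by
  rw [List.getD_eq_getElem?_getD]
  rcases hi : L[i]? with _ | a
  · simpa using hd
  · simpa using h a (List.mem_of_getElem? hi)

theorem run_closed (G : List (List ℕ)) (P : ℕ → Prop) (h0 : P 0)
    (hx : ∀ x y, P x → P y → P (x ^^^ y)) (hG : ∀ M ∈ G, ∀ x, P x → P (ap M x))
    (S : List (ℕ × ℕ × ℕ)) (L : List ℕ) (hL : ∀ x ∈ L, P x) : ∀ x ∈ run G S L, P x := by
  induction S generalizing L with
  | nil => exact hL
  | cons s S ih =>
    obtain ⟨a, b, c⟩ := s
    have hL' : ∀ i, P (L.getD i 0) := fun i => getD_mem P 0 h0 L hL i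
    cases a with
    | zero =>
      refine ih _ ?_
      intro x hx'
      rcases List.mem_cons.1 hx' with rfl | h
      · have hg : ∀ M ∈ G, ∀ x, P x → P (ap M x) := hG
        have key : (fun M : List ℕ => ∀ x, P x → P (ap M x)) (G.getD b []) :=
          getD_mem _ [] (fun x _ => by simpa [ap] using h0) G hg b
        exact key _ (hL' c)
      · exact hL x h
    | succ a =>
      refine ih _ ?_
      intro x hx'
      rcases List.mem_cons.1 hx' with rfl | h
      · exact hx _ _ (hL' b) (hL' c)
      · exact hL x h

/-- triangular columns lower the size of a bit vector. -/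
theorem ap_lt (N : List ℕ) (s : ℕ) (hN : ∀ j, N.getD j 0 < 2 ^ (j + s)) (x : ℕ) (hx : x ≠ 0) :
    ap N x < 2 ^ (Nat.log2 x + s) := by
  induction N generalizing s x with
  | nil => simp [ap]
  | cons c N ih =>
    have hc : c < 2 ^ s := by simpa using hN 0
    have hN' : ∀ j, N.getD j 0 < 2 ^ (j + (s + 1)) := by
      intro j
      have := hN (j + 1)
      simp only [List.getD_cons_succ] at this
      rwa [show j + 1 + s = j + (s + 1) by ring] at this
    simp only [ap]
    have hc' : (if x % 2 = 1 then c else 0) < 2 ^ (Nat.log2 x + s) := by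
      have h1 : (2 : ℕ) ^ s ≤ 2 ^ (Nat.log2 x + s) := Nat.pow_le_pow_right (by norm_num) (by omega)
      split_ifs
      · omega
      · exact Nat.pow_pos (by norm_num)
    refine Nat.xor_lt_two_pow hc' ?_
    by_cases hx2 : x / 2 = 0
    · rw [hx2, ap_zero]; exact Nat.pow_pos (by norm_num)
    · have h1 := ih (s + 1) hN' (x / 2) hx2
      have h2 : Nat.log2 x = Nat.log2 (x / 2) + 1 := by
        conv_lhs => rw [Nat.log2_def]
        rw [if_pos (by omega)]
      rw [h2, show (x / 2).log2 + 1 + s = (x / 2).log2 + (s + 1) by ring]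
      exact h1

theorem ap_lt_self (N : List ℕ) (hN : ∀ j, N.getD j 0 < 2 ^ j) (x : ℕ) (hx : x ≠ 0) :
    ap N x < x :=
  lt_of_lt_of_le (by simpa using ap_lt N 0 (by simpa using hN) x hx) (Nat.log2_self_le hx)

/-- pointwise xor. -/
def xl (A B : List ℕ) : List ℕ := List.zipWith (· ^^^ ·) A B

theorem ap_xl (A B : List ℕ) (h : A.length = B.length) (x : ℕ) :
    ap (xl A B) x = ap A x ^^^ ap B x := by
  induction A generalizing B x with
  | nil =>
    cases B with
    | nil => simp [ap, xl]
    | cons b B => simp at h
  | cons a A ih =>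
    cases B with
    | nil => simp at h
    | cons b B =>
      have hh : A.length = B.length := by simpa using h
      simp only [xl, List.zipWith_cons_cons, ap]
      have := ih B hh (x / 2)
      simp only [xl] at this
      rw [this]
      split_ifs
      · simp only [Nat.xor_assoc]
        congr 1
        rw [← Nat.xor_assoc, ← Nat.xor_assoc]
        congr 1
        exact Nat.xor_comm _ _
      · simp

theorem ap_map (A B : List ℕ) (x : ℕ) : ap A (ap B x) = ap (B.map (ap A)) x := by
  induction B generalizing x with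
  | nil => simp [ap, ap_zero]
  | cons b B ih =>
    simp only [ap, List.map_cons]
    rw [ap_xor, ih]
    split_ifs
    · rfl
    · rw [ap_zero]

/-- the identity columns `2^s, 2^(s+1), …` (`n` of them). -/
def idl : ℕ → ℕ → List ℕ
  | 0, _ => []
  | n + 1, s => 2 ^ s :: idl n (s + 1)

theorem ap_idl (n s x : ℕ) (hx : x < 2 ^ n) : ap (idl n s) x = x * 2 ^ s := by
  induction n generalizing s x with
  | zero =>
    have : x = 0 := by simpa using hx
    simp [idl, ap, this]
  | succ n ih =>
    simp only [idl, ap]
    rw [ih (s + 1) (x / 2) (by rw [pow_succ] at hx; omega)]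
    have hx2 : x = 2 * (x / 2) + x % 2 := by omega
    apply Nat.eq_of_testBit_eq
    intro i
    rw [Nat.testBit_xor]
    rcases Nat.mod_two_eq_zero_or_one x with h | h
    · simp only [h]
      simp only [Nat.zero_ne_one, if_false, Nat.zero_testBit, Bool.false_bne]
      congr 1
      conv_rhs => rw [hx2, h]
      ring
    · simp only [h, if_true]
      have e1 : x / 2 * 2 ^ (s + 1) = 2 ^ (s + 1) * (x / 2) := by ring
      have e2 : x * 2 ^ s = 2 ^ (s + 1) * (x / 2) + 2 ^ s := by
        conv_lhs => rw [hx2, h]
        ring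
      rw [e1, e2, Nat.testBit_two_pow_mul_add _ (by
        exact Nat.pow_lt_pow_right (by norm_num) (Nat.lt_succ_self s)),
        Nat.testBit_two_pow, Nat.testBit_two_pow_mul]
      by_cases hi : i < s + 1
      · simp [hi, show ¬ (s + 1 ≤ i) by omega]
      · simp [hi, show (s + 1 ≤ i) by omega, show s ≠ i by omega]

end Cfsg.Agent.H356.L34
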