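import Cfsg.Agent.H356.L34.Dat3

/-! # Counting fixed points with a packed certificate (S5917) -/

set_option autoImplicit false

namespace Cfsg.Agent.H356.L34

theorem ap_bound (M : List ℕ) (n : ℕ) (h : ∀ c ∈ M, c < 2 ^ n) (x : ℕ) : ap M x < 2 ^ n := by
  induction M generalizing x with
  | nil => simp [ap]
  | cons c M ih =>
    simp only [ap]
    refine Nat.xor_lt_two_pow ?_ (ih (fun c hc => h c (List.mem_cons_of_mem _ hc)) _)
    split_ifs
    · exact h c List.mem_cons_self
    · exact Nat.pow_pos (by norm_num)

theorem idl_length (n s : ℕ) : (idl n s).length = n := by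
  induction n generalizing s with
  | zero => rfl
  | succ n ih => simp [idl, ih]

theorem ap_idl0 (n x : ℕ) (hx : x < 2 ^ n) : ap (idl n 0) x = x := by
  rw [ap_idl n 0 x hx, pow_zero, mul_one]

theorem xor_eq_zero' {a b : ℕ} (h : a ^^^ b = 0) : a = b := by
  exact Nat.xor_eq_zero_iff.1 h

theorem fix_card {V : Type*} [AddCommGroup V] (h2 : ∀ v : V, v + v = 0) (m : List V)
    (hinj : ∀ x < 2 ^ 36, lx m x = 0 → x = 0) (T : V →+ V) {X F L C : List ℕ} {k : ℕ}
    (hg : Good X F L C k) (hT : m.map T = X.map (lx m)) :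
    Nat.card {v : V // (∃ x < 2 ^ 36, lx m x = v) ∧ T v = v} = 2 ^ k := by
  obtain ⟨hX, hL, hC, hF, bX, bF, bL, e1, e2, e3⟩ := hg
  have hT' := act_lx h2 T m X hT
  have key : ∀ x < 2 ^ 36, ∀ y < 2 ^ 36, lx m x = lx m y → x = y := by
    intro x hx y hy h
    apply xor_eq_zero'
    apply hinj _ (Nat.xor_lt_two_pow hx hy)
    rw [lx_xor h2, h, h2]
  have hFix : ∀ z, ap X (ap F z) = ap F z := fun z => by rw [ap_map, e1]
  have hLF : ∀ z < 2 ^ k, ap L (ap F z) = z := fun z hz => by rw [ap_map, e3, ap_idl0 k z hz]
  let f : Fin (2 ^ k) → {v : V // (∃ x < 2 ^ 36, lx m x = v) ∧ T v = v} := fun z =>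
    ⟨lx m (ap F z), ⟨_, ap_bound F 36 bF _, rfl⟩, by rw [hT', hFix]⟩
  have hf : Function.Bijective f := by
    constructor
    · intro z z' h
      have h' : lx m (ap F z) = lx m (ap F z') := congrArg Subtype.val h
      have h'' := key _ (ap_bound F 36 bF _) _ (ap_bound F 36 bF _) h'
      apply Fin.ext
      rw [← hLF z z.2, h'', hLF z' z'.2]
    · rintro ⟨v, ⟨x, hx, rfl⟩, hv⟩
      rw [hT'] at hv
      have hx' := key _ (ap_bound X 36 bX _) _ hx hv
      have e : x = ap F (ap L x) := by
        have : ap (xl ((xl X (idl 36 0)).map (ap C)) (L.map (ap F))) x = ap (idl 36 0) x := by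
          rw [e2]
        rw [ap_idl0 36 x hx, ap_xl _ _ (by simp [xl, hX, hL, idl_length]), ← ap_map, ← ap_map,
          ap_xl _ _ (by rw [hX, idl_length]), ap_idl0 36 x hx, hx', Nat.xor_self, ap_zero,
          Nat.zero_xor] at this
        exact this.symm
      exact ⟨⟨ap L x, ap_bound L k bL _⟩, Subtype.ext (by simp only [f]; rw [← e])⟩
  rw [← Nat.card_congr (Equiv.ofBijective f hf), Nat.card_eq_fintype_card, Fintype.card_fin]

theorem lx_two_pow {V : Type*} [AddCommMonoid V] (m : List V) (i : ℕ) :
    lx m (2 ^ i) = m.getD i 0 := by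
  induction m generalizing i with
  | nil => simp [lx]
  | cons c m ih =>
    cases i with
    | zero => simp [lx, lx_zero]
    | succ i =>
      simp only [lx, List.getD_cons_succ]
      rw [if_neg (by rw [pow_succ]; omega), zero_add,
        show (2 : ℕ) ^ (i + 1) / 2 = 2 ^ i by rw [pow_succ]; omega, ih]

/-! ### the bracket -/

section br

variable {V : Type*} [AddCommGroup V]

/-- the brackets of the pairs of members of `b`. -/
def wl (β : V → V → V) (b : List V) : List V := PR.map fun p => β (b.getD p.1 0) (b.getD p.2 0)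

theorem br_lx (h2 : ∀ v : V, v + v = 0) (β : V →+ V →+ V) (halt : ∀ v, β v v = 0)
    (b : List V) (hb : b.length = 9) (x y : ℕ) :
    β (lx b x) (lx b y) = lx (wl (fun u v => β u v) b) (wedge x y) := by
  have hs : ∀ u v, β u v = β v u := by
    intro u v
    have h := halt (u + v)
    simp only [map_add, AddMonoidHom.add_apply, halt, zero_add, add_zero] at h
    have h' : β u v = -β v u := by
      rw [eq_neg_iff_add_eq_zero, add_comm]; exact h
    rw [h', neg_eq_iff_add_eq_zero]; exact h2 _
  have h1 : β (lx b x) (lx b y) = lx (b.map fun u => lx (b.map fun v => β u v) y) x := by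
    have e1 := map_lx (β.flip (lx b y)) b x
    simp only [AddMonoidHom.flip_apply] at e1
    rw [e1]
    congr 1
    apply List.map_congr_left
    intro u _
    exact map_lx (β u) b y
  have h3 : lx (wl (fun u v => β u v) b) (wedge x y) =
      lx (WT.map fun R => lx (R.map (lx (wl (fun u v => β u v) b))) y) x := by
    rw [wedge, lx_ap h2, List.map_map]
    congr 1
    apply List.map_congr_left
    intro R _
    exact lx_ap h2 _ _ _
  rw [h1, h3]
  have key : (b.map fun u => b.map fun v => β u v) =
      WT.map fun R => R.map (lx (wl (fun u v => β u v) b)) := by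
    rw [WT_eq, List.map_map]
    have hz : lx (wl (fun u v => β u v) b) 0 = 0 := lx_zero _
    have hp : ∀ i, lx (wl (fun u v => β u v) b) (2 ^ i) =
        (wl (fun u v => β u v) b).getD i 0 := lx_two_pow _
    have e : ∀ R : List (Option ℕ), ((fun R : List ℕ => R.map (lx (wl (fun u v => β u v) b))) ∘
        fun R : List (Option ℕ) => R.map fun o => match o with
          | none => 0
          | some i => 2 ^ i) R = R.map fun o => match o with
          | none => 0
          | some i => (wl (fun u v => β u v) b).getD i 0 := by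
      intro R
      simp only [Function.comp, List.map_map]
      apply List.map_congr_left
      intro o _
      cases o with
      | none => exact hz
      | some i => exact hp i
    refine Eq.trans ?_ (List.map_congr_left (fun R _ => (e R).symm))
    match b, hb with
    | [b0, b1, b2, b3, b4, b5, b6, b7, b8], _ =>
      simp only [WTe, wl, PR, List.map_cons, List.map_nil, List.getD_cons_succ,
        List.getD_cons_zero, halt, List.cons.injEq, and_true, true_and, hs b1 b0, hs b2 b0,
        hs b3 b0, hs b4 b0, hs b5 b0, hs b6 b0, hs b7 b0, hs b8 b0, hs b2 b1, hs b3 b1, hs b4 b1,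
        hs b5 b1, hs b6 b1, hs b7 b1, hs b8 b1, hs b3 b2, hs b4 b2, hs b5 b2, hs b6 b2, hs b7 b2,
        hs b8 b2, hs b4 b3, hs b5 b3, hs b6 b3, hs b7 b3, hs b8 b3, hs b5 b4, hs b6 b4, hs b7 b4,
        hs b8 b4, hs b6 b5, hs b7 b5, hs b8 b5, hs b7 b6, hs b8 b6, hs b8 b7]
  have := congrArg (fun (l : List (List V)) => lx (l.map fun R => lx R y) x) key
  simp only [List.map_map] at this
  exact this

theorem wl_act (h2 : ∀ v : V, v + v = 0) (β : V →+ V →+ V) (halt : ∀ v, β v v = 0) (T : V →+ V)
    (hT : ∀ u v, T (β u v) = β (T u) (T v)) (b : List V) (hb : b.length = 9) (G : List ℕ)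
    (h : b.map T = G.map (lx b)) :
    (wl (fun u v => β u v) b).map T = (lsq G).map (lx (wl (fun u v => β u v) b)) := by
  have hi : ∀ i, T (b.getD i 0) = lx b (G.getD i 0) := by
    intro i
    have h1 := List.getD_map (l := b) (n := i) (d := 0) (fun v => T v)
    have h2 := List.getD_map (l := G) (n := i) (d := 0) (lx b)
    rw [lx_zero] at h2
    simp only [map_zero] at h1
    rw [← h1, ← h2]
    exact congrArg (fun l : List V => l.getD i 0) h
  rw [wl, lsq, List.map_map, List.map_map]
  apply List.map_congr_left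
  intro p _
  simp only [Function.comp]
  rw [hT, hi, hi, br_lx h2 β halt b hb]
  rfl

end br

end Cfsg.Agent.H356.L34
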