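import Cfsg.Agent.H356.L34.Fix
import Cfsg.Agent.H691.L34.Def

/-! # Hermitian matrices as bit vectors (S5917) -/

set_option autoImplicit false

namespace Cfsg.Agent.H356.L34

open Matrix Cfsg.Agent.H691.L34

variable {F : Type} [Field F]

/-- a hermitian matrix. -/
def hm (a b c x y z : F) : M3 F := !![a, x, y; x ^ 2, b, z; y ^ 2, z ^ 2, c]

/-- the basis. -/
def BL (w : F) : List (M3 F) := [hm 1 0 0 0 0 0, hm 0 0 0 1 0 0, hm 0 0 0 w 0 0, hm 0 0 0 0 1 0,
  hm 0 0 0 0 w 0, hm 0 1 0 0 0 0, hm 0 0 0 0 0 1, hm 0 0 0 0 0 w, hm 0 0 1 0 0 0]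

theorem hm_add (h2 : (2 : F) = 0) (a b c x y z a' b' c' x' y' z' : F) :
    hm a b c x y z + hm a' b' c' x' y' z' = hm (a + a') (b + b') (c + c') (x + x') (y + y')
      (z + z') := by
  ext i j
  fin_cases i <;> fin_cases j <;> simp [hm] <;> grind

theorem hact_apply (g : G3 F) (X : M3 F) (i j : Fin 3) : hact g X i j =
    (g.1 i 0 * X 0 0 + g.1 i 1 * X 1 0 + g.1 i 2 * X 2 0) * (g.1 j 0) ^ 2 +
    (g.1 i 0 * X 0 1 + g.1 i 1 * X 1 1 + g.1 i 2 * X 2 1) * (g.1 j 1) ^ 2 +
    (g.1 i 0 * X 0 2 + g.1 i 1 * X 1 2 + g.1 i 2 * X 2 2) * (g.1 j 2) ^ 2 := by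
  show ((g.1 * X) * ct g.1) i j = _
  rw [Matrix.mul_apply, Fin.sum_univ_three]
  simp only [Matrix.mul_apply, Fin.sum_univ_three, ct, Matrix.transpose_apply, Matrix.map_apply]

theorem hact_three {w : F} (hw : w ^ 2 + w + 1 = 0) (h2 : (2 : F) = 0) (g : G3 F)
    (hg : g.1 = !![1, 0, 0; 0, w, 0; 0, 0, w ^ 2]) :
    (BL w).map (hact g) = A3.map (lx (BL w)) := by
  simp only [BL, A3, List.map_cons, List.map_nil, List.cons.injEq, and_true]
  refine ⟨?_, ?_, ?_, ?_, ?_, ?_, ?_, ?_, ?_⟩ <;>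
  · simp only [lx]
    norm_num
    try simp only [hm_add h2]
    ext i j
    rw [hact_apply, hg]
    fin_cases i <;> fin_cases j <;> simp [hm] <;> grind

theorem hact_five {w : F} (hw : w ^ 2 + w + 1 = 0) (h2 : (2 : F) = 0) (g : G3 F)
    (hg : g.1 = !![0, 1, 0; 1, w, 0; 0, 0, 1]) :
    (BL w).map (hact g) = A5.map (lx (BL w)) := by
  simp only [BL, A5, List.map_cons, List.map_nil, List.cons.injEq, and_true]
  refine ⟨?_, ?_, ?_, ?_, ?_, ?_, ?_, ?_, ?_⟩ <;>
  · simp only [lx]
    norm_num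
    try simp only [hm_add h2]
    ext i j
    rw [hact_apply, hg]
    fin_cases i <;> fin_cases j <;> simp [hm] <;> grind

theorem hact_seven {w : F} (hw : w ^ 2 + w + 1 = 0) (h2 : (2 : F) = 0) (g : G3 F)
    (hg : g.1 = !![0, 0, 1; 1, 0, 1; 0, 1, 0]) :
    (BL w).map (hact g) = A7.map (lx (BL w)) := by
  simp only [BL, A7, List.map_cons, List.map_nil, List.cons.injEq, and_true]
  refine ⟨?_, ?_, ?_, ?_, ?_, ?_, ?_, ?_, ?_⟩ <;>
  · simp only [lx]
    norm_num
    try simp only [hm_add h2]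
    ext i j
    rw [hact_apply, hg]
    fin_cases i <;> fin_cases j <;> simp [hm] <;> grind

/-! ### the field with four elements -/

theorem two_zero [Fintype F] (hF : Fintype.card F = 4) : (2 : F) = 0 := by
  have h := FiniteField.cast_card_eq_zero F
  rw [hF] at h
  have h' : (2 : F) * 2 = 0 := by
    push_cast at h
    linear_combination h
  rcases mul_eq_zero.1 h' with h | h <;> exact h

theorem pow_four [Fintype F] (hF : Fintype.card F = 4) (a : F) : a ^ 4 = a := by
  have := FiniteField.pow_card a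
  rwa [hF] at this

theorem exists_w [Fintype F] (hF : Fintype.card F = 4) : ∃ w : F, w ^ 2 + w + 1 = 0 := by
  classical
  have h : ∃ w : F, w ∉ ({0, 1} : Finset F) := by
    by_contra hcon
    push Not at hcon
    have : Finset.univ ⊆ ({0, 1} : Finset F) := fun w _ => hcon w
    have h2 := Finset.card_le_card this
    rw [Finset.card_univ, hF] at h2
    have := Finset.card_le_two (a := (0 : F)) (b := 1)
    omega
  obtain ⟨w, hw⟩ := h
  simp only [Finset.mem_insert, Finset.mem_singleton, not_or] at hw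
  refine ⟨w, ?_⟩
  have h4 := pow_four hF w
  have : w * ((w - 1) * (w ^ 2 + w + 1)) = 0 := by linear_combination h4
  rcases mul_eq_zero.1 this with h | h
  · exact absurd h hw.1
  · rcases mul_eq_zero.1 h with h | h
    · exact absurd (sub_eq_zero.1 h) hw.2
    · exact h

theorem four_cases [Fintype F] (hF : Fintype.card F = 4) {w : F} (hw : w ^ 2 + w + 1 = 0) (x : F) :
    x = 0 ∨ x = 1 ∨ x = w ∨ x = 1 + w := by
  have h4 := pow_four hF x
  have h2 := two_zero hF
  have : x * ((x - 1) * ((x - w) * (x - (1 + w)))) = 0 := by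
    grind
  rcases mul_eq_zero.1 this with h | h
  · exact Or.inl h
  rcases mul_eq_zero.1 h with h | h
  · exact Or.inr (Or.inl (sub_eq_zero.1 h))
  rcases mul_eq_zero.1 h with h | h
  · exact Or.inr (Or.inr (Or.inl (sub_eq_zero.1 h)))
  · exact Or.inr (Or.inr (Or.inr (sub_eq_zero.1 h)))

theorem HF_hm [Fintype F] (hF : Fintype.card F = 4) {X : M3 F} :
    HF X ↔ ∃ a b c x y z : F, a ^ 2 = a ∧ b ^ 2 = b ∧ c ^ 2 = c ∧ X = hm a b c x y z := by
  constructor
  · intro h
    have e : ∀ i j, (X j i) ^ 2 = X i j := fun i j => congrFun (congrFun h i) j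
    refine ⟨X 0 0, X 1 1, X 2 2, X 0 1, X 0 2, X 1 2, e 0 0, e 1 1, e 2 2, ?_⟩
    ext i j
    fin_cases i <;> fin_cases j <;> simp [hm, e]
  · rintro ⟨a, b, c, x, y, z, ha, hb, hc, rfl⟩
    have p4 : ∀ t : F, (t ^ 2) ^ 2 = t := fun t => by rw [← pow_mul]; exact pow_four hF t
    show ct _ = _
    ext i j
    fin_cases i <;> fin_cases j <;> simp [hm, ct, ha, hb, hc, p4]

theorem HF_zero : HF (0 : M3 F) := by
  show ct _ = _
  ext i j
  simp [ct]

theorem HF_add [Fintype F] (hF : Fintype.card F = 4) {X Y : M3 F} (hX : HF X) (hY : HF Y) :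
    HF (X + Y) := by
  have h2 := two_zero hF
  have e : ∀ i j, (X j i) ^ 2 = X i j := fun i j => congrFun (congrFun hX i) j
  have e' : ∀ i j, (Y j i) ^ 2 = Y i j := fun i j => congrFun (congrFun hY i) j
  show ct _ = _
  ext i j
  simp only [ct, Matrix.transpose_apply, Matrix.map_apply, Matrix.add_apply]
  rw [← e i j, ← e' i j]
  linear_combination (X j i * Y j i) * h2

theorem HF_BL [Fintype F] (hF : Fintype.card F = 4) (w : F) : ∀ X ∈ BL w, HF X := by
  intro X hX
  rw [HF_hm hF]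
  simp only [BL, List.mem_cons, List.not_mem_nil, or_false] at hX
  rcases hX with rfl | rfl | rfl | rfl | rfl | rfl | rfl | rfl | rfl <;>
    exact ⟨_, _, _, _, _, _, by norm_num, by norm_num, by norm_num, rfl⟩

theorem HF_lx [Fintype F] (hF : Fintype.card F = 4) (L : List (M3 F)) (hL : ∀ X ∈ L, HF X) (x : ℕ) :
    HF (lx L x) := by
  induction L generalizing x with
  | nil => exact HF_zero
  | cons c L ih =>
    simp only [lx]
    refine HF_add hF ?_ (ih (fun X hX => hL X (List.mem_cons_of_mem _ hX)) _)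
    split_ifs
    · exact hL c List.mem_cons_self
    · exact HF_zero

theorem phi_lx [Fintype F] (hF : Fintype.card F = 4) {V : Type*} [AddCommGroup V] {φ : M3 F → V}
    (h1 : ∀ X Y, HF X → HF Y → φ (X + Y) = φ X + φ Y) (L : List (M3 F)) (hL : ∀ X ∈ L, HF X)
    (x : ℕ) : φ (lx L x) = lx (L.map φ) x := by
  have h0 : φ 0 = 0 := by
    have := h1 0 0 HF_zero HF_zero
    rw [add_zero] at this
    exact left_eq_add.1 this
  induction L generalizing x with
  | nil => exact h0
  | cons c L ih =>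
    have hL' : ∀ X ∈ L, HF X := fun X hX => hL X (List.mem_cons_of_mem _ hX)
    simp only [lx, List.map_cons]
    rw [h1 _ _ _ (HF_lx hF L hL' _), ih hL']
    · congr 1
      split_ifs
      · rfl
      · exact h0
    · split_ifs
      · exact hL c List.mem_cons_self
      · exact HF_zero

/-- subset sums. -/
theorem lx_step {V : Type*} [AddCommMonoid V] {c : V} {L : List V} {Y : V} {n : ℕ}
    (h : ∃ x < 2 ^ n, Y = lx L x) (e : Bool) :
    ∃ x < 2 ^ (n + 1), (if e then c else 0) + Y = lx (c :: L) x := by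
  obtain ⟨x, hx, rfl⟩ := h
  cases e
  · refine ⟨2 * x, by rw [pow_succ]; omega, ?_⟩
    simp only [lx]
    rw [show 2 * x % 2 = 0 by omega, show 2 * x / 2 = x by omega]
    simp
  · refine ⟨2 * x + 1, by rw [pow_succ]; omega, ?_⟩
    simp only [lx]
    rw [show (2 * x + 1) % 2 = 1 by omega, show (2 * x + 1) / 2 = x by omega]
    simp

theorem code [Fintype F] (hF : Fintype.card F = 4) {w : F} (hw : w ^ 2 + w + 1 = 0) {X : M3 F}
    (hX : HF X) : ∃ x < 2 ^ 9, X = lx (BL w) x := by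
  have h2 := two_zero hF
  obtain ⟨a, b, c, x, y, z, ha, hb, hc, rfl⟩ := (HF_hm hF).1 hX
  have bit : ∀ a : F, a ^ 2 = a → ∃ e : Bool, a = if e then 1 else 0 := by
    intro a ha
    have : a * (a - 1) = 0 := by linear_combination ha
    rcases mul_eq_zero.1 this with h | h
    · exact ⟨false, by simpa using h⟩
    · exact ⟨true, by simpa using sub_eq_zero.1 h⟩
  have bits : ∀ x : F, ∃ e f : Bool, x = (if e then 1 else 0) + (if f then w else 0) := by
    intro x
    rcases four_cases hF hw x with h | h | h | h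
    · exact ⟨false, false, by simp [h]⟩
    · exact ⟨true, false, by simp [h]⟩
    · exact ⟨false, true, by simp [h]⟩
    · exact ⟨true, true, by simp [h]⟩
  obtain ⟨ea, rfl⟩ := bit a ha
  obtain ⟨eb, rfl⟩ := bit b hb
  obtain ⟨ec, rfl⟩ := bit c hc
  obtain ⟨e1, f1, rfl⟩ := bits x
  obtain ⟨e2, f2, rfl⟩ := bits y
  obtain ⟨e3, f3, rfl⟩ := bits z
  have h0 : ∃ x < 2 ^ 0, (0 : M3 F) = lx [] x := ⟨0, by norm_num, rfl⟩
  have hs := lx_step (c := hm 1 0 0 0 0 0) (lx_step (c := hm 0 0 0 1 0 0)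
    (lx_step (c := hm 0 0 0 w 0 0) (lx_step (c := hm 0 0 0 0 1 0) (lx_step (c := hm 0 0 0 0 w 0)
    (lx_step (c := hm 0 1 0 0 0 0) (lx_step (c := hm 0 0 0 0 0 1) (lx_step (c := hm 0 0 0 0 0 w)
    (lx_step (c := hm 0 0 1 0 0 0) h0 ec) f3) e3) eb) f2) e2) f1) e1) ea
  obtain ⟨x, hx, e⟩ := hs
  refine ⟨x, hx, ?_⟩
  rw [BL, ← e]
  have iz : ∀ (e : Bool) (a b c x y z : F), (if e then hm a b c x y z else 0) =
      hm (if e then a else 0) (if e then b else 0) (if e then c else 0) (if e then x else 0)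
        (if e then y else 0) (if e then z else 0) := by
    intro e a b c x y z
    cases e
    · ext i j
      fin_cases i <;> fin_cases j <;> simp [hm]
    · simp
  simp only [iz, hm_add h2, add_zero, ite_self, zero_add]

end Cfsg.Agent.H356.L34
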