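import Cfsg.Agent.H356.L34.Dims
import Cfsg.Agent.H745.L34.Cls
import Cfsg.Agent.H745.L34.Cls7

/-! # S5917, row M8: the dimensions of the embedded exterior square -/

set_option autoImplicit false

namespace Cfsg.Agent.H356.L34

open Matrix Cfsg.Agent.H691.L34 Cfsg.Agent.H288.L34

variable {F : Type} [Field F] [Fintype F] {V : Type} [AddCommGroup V] [Module (ZMod 2) V]

theorem lam_dims (hF : Fintype.card F = 4) {ρ : Representation (ZMod 2) (G3 F) V}
    {β : V →ₗ[ZMod 2] V →ₗ[ZMod 2] V} (hβ : Brk ρ β) {b : Bool}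
    {W : Submodule (ZMod 2) V} (hW : IsNine ρ b W)
    (h : 36 ≤ Module.finrank (ZMod 2) (bsp β W)) : Dims ρ (bsp β W) 36 12 8 6 :=
  lam_dims_of hF (fun hw g h3 hc => Cfsg.Agent.H745.L34.cls3 hF hw g h3 hc)
    (fun hw g h5 => Cfsg.Agent.H745.L34.cls5 hF hw g h5)
    (fun g h7 => Cfsg.Agent.H745.L34.cls7 hF g h7) hβ hW h

/-- a submodule of type 9 is invariant. -/
theorem inv_nine (hF : Fintype.card F = 4) {ρ : Representation (ZMod 2) (G3 F) V} {b : Bool}
    {W : Submodule (ZMod 2) V} (hW : IsNine ρ b W) : Inv ρ W := by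
  have h20 := two_zero hF
  obtain ⟨φ, h1, _, h2, h3⟩ := hW
  intro g v hv
  obtain ⟨X, hX, rfl⟩ := (h2 v).1 hv
  rw [h3 g X hX]
  refine (h2 _).2 ⟨_, ?_, rfl⟩
  have ctct : ∀ Y : M3 F, ct (ct Y) = Y := by
    intro Y
    ext i j
    simp only [ct, Matrix.transpose_apply, Matrix.map_apply]
    rw [← pow_mul]
    exact pow_four hF _
  have ctmul : ∀ Y Z : M3 F, ct (Y * Z) = ct Z * ct Y := by
    intro Y Z
    ext i j
    simp only [ct, Matrix.transpose_apply, Matrix.map_apply, Matrix.mul_apply,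
      Fin.sum_univ_three]
    linear_combination (Y j 0 * Z 0 i * (Y j 1 * Z 1 i) + Y j 0 * Z 0 i * (Y j 2 * Z 2 i) +
      Y j 1 * Z 1 i * (Y j 2 * Z 2 i)) * h20
  show ct ((tw b g).1 * X * ct (tw b g).1) = (tw b g).1 * X * ct (tw b g).1
  rw [ctmul, ctmul, ctct, hX, Matrix.mul_assoc]

/-- the span of the brackets of a submodule of type 9 is invariant. -/
theorem lam_inv (hF : Fintype.card F = 4) {ρ : Representation (ZMod 2) (G3 F) V}
    {β : V →ₗ[ZMod 2] V →ₗ[ZMod 2] V} (hβ : Brk ρ β) {b : Bool}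
    {W : Submodule (ZMod 2) V} (hW : IsNine ρ b W) : Inv ρ (bsp β W) :=
  inv_bsp hβ (inv_nine hF hW)

end Cfsg.Agent.H356.L34
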